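import Cfsg.Agent.H30.IF.Chain
import Cfsg.Agent.KFacts.Ru.Core
import Cfsg.Agent.OddHalf.D9.Ru.XLevel
import Cfsg.Agent.Ru127.CardD
import Cfsg.Agent.RuC.Trans

/-!
# S5719, row Ru: an involution of class 2B in `A` gives an involution of class 2A in `A` (helper667, for helper30)

`C(T)` contains a Sylow 2-subgroup `X` (order 64) of `Sz(8)`; all involutions of `X` are conjugate to `S * S`;
`|X : X ∩ A| ≤ 16`.
-/

set_option autoImplicit false
set_option maxRecDepth 100000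

namespace Cfsg.Agent.H667.Fxy

open Subgroup Cfsg.Agent.SporadicB Cfsg.Agent.RuD.Letters Cfsg.Agent.SporRec.TCUpperCert
open Cfsg.Agent.SporRec.R3.Kernel Cfsg.Agent.RuB Cfsg.Agent.RuB.Core Cfsg.Agent.KFacts.Ru
open Cfsg.Agent.H209.Fxy Cfsg.Agent.H30.Fxy

theorem finH : Finite RuOrder.H := Nat.finite_of_card_ne_zero (by rw [RuOrder.card_H]; norm_num)

theorem simpleH : IsSimpleGroup RuOrder.H :=
  Cfsg.Agent.RuC.Trans.isSimple_of_isoRu ⟨Cfsg.Agent.RuLat.Main.equiv.symm⟩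

theorem isConj_z {G : Type*} [Group G] (C : Core G) {b : K8} (hb : b ≠ 0) : IsConj (C.z 1) (C.z b) := by
  have h1 : ∀ b : K8, (b ^ 2) ^ 4 = b := by decide +kernel
  have h := C.dk_z (Units.mk0 (b ^ 2) (pow_ne_zero 2 hb)) 1
  rw [Units.val_mk0, one_mul, h1] at h
  exact isConj_iff.2 ⟨_, h⟩

/-- the Sylow 2-subgroup of `Sz(8)` -/
def X {G : Type*} [Group G] (C : Core G) : Subgroup G where
  carrier := {g | ∃ a b, g = C.U a b}
  mul_mem' := by
    rintro _ _ ⟨a, b, rfl⟩ ⟨c, e, rfl⟩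
    exact ⟨_, _, C.U_mul a b c e⟩
  one_mem' := ⟨0, 0, C.U_zero.symm⟩
  inv_mem' := by
    rintro _ ⟨a, b, rfl⟩
    exact ⟨_, _, C.U_inv a b⟩

theorem card_X {G : Type*} [Group G] (C : Core G) : Nat.card (X C) = 64 := by
  have h1 : Nat.card (K8 × K8) = 64 := by rw [Nat.card_eq_fintype_card]; decide +kernel
  rw [← h1]
  symm
  refine Nat.card_congr (Equiv.ofBijective (fun p : K8 × K8 => (⟨C.U p.1 p.2, p.1, p.2, rfl⟩ : X C)) ⟨?_, ?_⟩)
  · intro p q h
    obtain ⟨e1, e2⟩ := C.U_inj (show C.U p.1 p.2 = C.U q.1 q.2 from congrArg (fun t : X C => (t : G)) h)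
    exact Prod.ext e1 e2
  · rintro ⟨_, a, b, rfl⟩
    exact ⟨(a, b), rfl⟩

/-- a nontrivial element of `X` gives an involution -/
theorem exists_invol {G : Type*} [Group G] (C : Core G) {B : Subgroup G} {g : G} (hg : g ∈ X C) (hgB : g ∈ B)
    (h1 : g ≠ 1) : ∃ y ∈ B, IsConj (C.z 1) y := by
  obtain ⟨a, b, rfl⟩ := hg
  by_cases ha : a = 0
  · subst ha
    refine ⟨_, hgB, isConj_z C fun hb => h1 ?_⟩
    rw [hb, C.U_zero]
  · refine ⟨C.U a b * C.U a b, mul_mem hgB hgB, ?_⟩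
    rw [C.U_sq]
    exact isConj_z C (pow_ne_zero 5 ha)

theorem index_T {G : Type*} [Group G] [Finite G] (C : Core G) (hG : Nat.card G = 145926144000) {a : A4} (ha : a ≠ 0) :
    (centralizer ({C.v a} : Set G)).index = 1252800 := by
  have h1 := Cfsg.Agent.Ru127.CardD.card_cent_v (C := C) ha
  rw [top_inf_eq] at h1
  have h2 := (centralizer ({C.v a} : Set G)).card_mul_index
  rw [h1, hG] at h2
  omega

/-- **2B in `A` gives 2A in `A`** -/
theorem two_b {A : Subgroup RuOrder.H} {Γ : Subgroup (MulAut RuOrder.H)} (h : IF A Γ) {x : RuOrder.H} (hx : x ∈ A)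
    (hc : IsConj T x) : ∃ y ∈ A, IsConj (S * S) y := by
  have := finH
  have := simpleH
  obtain ⟨C, -, -, hv, hU, -, -⟩ := lets_model.exists_core
  have hT : C.v (1, 0) = T := by rw [hv, vv_one0]
  have ha : ((1, 0) : A4) ≠ 0 := by decide
  have hSS : C.z 1 = S * S := by rw [← hU, C.U_sq, one_pow]
  have hna : ∃ a b : RuOrder.H, a * b ≠ b * a := by
    refine ⟨C.U 1 0, C.U K8.al 0, fun e => ?_⟩
    rw [C.U_mul, C.U_mul] at e
    exact absurd (C.U_inj e).2 (by decide +kernel)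
  obtain ⟨c, hcx⟩ := isConj_iff.1 hc
  have h2 : orderOf T = 2 := orderOf_eq_prime (by rw [pow_two]; exact lets_model.tsq) lets_model.ne
  have hg : (c⁻¹)⁻¹ * T * c⁻¹ ∈ A := by rw [inv_inv, hcx]; exact hx
  have hf := fx_lt h hna h2 (b := 17) (by
    rw [← hT, index_T C RuOrder.card_H ha]; norm_num) hg
  have hr := rel_le A (z := T) (X := X C) (by
    rintro _ ⟨a, b, rfl⟩
    rw [← hT]
    exact C.v_U_comm _ _ _) c⁻¹
  set A' := A.comap (MulAut.conj (c⁻¹)⁻¹).toMonoidHom with hA'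
  have h3 : A'.relIndex (X C) < 17 := lt_of_le_of_lt hr hf
  have h4 : Nat.card (A' ⊓ X C : Subgroup RuOrder.H) * A'.relIndex (X C) = 64 := by
    have e1 : Nat.card ((A' ⊓ X C).subgroupOf (X C)) = Nat.card (A' ⊓ X C : Subgroup RuOrder.H) :=
      Nat.card_congr (subgroupOfEquivOfLe inf_le_right).toEquiv
    rw [inf_subgroupOf_right] at e1
    have e2 := (A'.subgroupOf (X C)).card_mul_index
    rw [e1, card_X] at e2
    exact e2
  have h5 : 1 < Nat.card (A' ⊓ X C : Subgroup RuOrder.H) := by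
    by_contra hcon
    push Not at hcon
    have : Nat.card (A' ⊓ X C : Subgroup RuOrder.H) * A'.relIndex (X C) ≤ 1 * 16 :=
      Nat.mul_le_mul hcon (by omega)
    omega
  obtain ⟨⟨g, hgA, hgX⟩, hg1⟩ := Subgroup.ne_bot_iff_exists_ne_one.1 ((A' ⊓ X C).one_lt_card_iff_ne_bot.1 h5)
  obtain ⟨y, hy, hcy⟩ := exists_invol C hgX hgA fun e => hg1 (Subtype.ext e)
  refine ⟨c * y * c⁻¹, ?_, ?_⟩
  · rw [hA', mem_comap] at hy
    simpa using hy
  · rw [← hSS]
    exact hcy.trans (isConj_iff.2 ⟨c, rfl⟩)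

end Cfsg.Agent.H667.Fxy
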